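import Cfsg.Agent.Lib.FusionBasics.Balance.Transport
import Cfsg.Agent.Lib.FusionSub.Puig
import Cfsg.Agent.Lib.FusionBasics.Meet.Agree

/-!
Every map of a system is a map defined on `P T` followed by a map of a product system of a normal
subsystem over `T`.
-/

set_option autoImplicit false
set_option linter.style.haveILetI false
set_option linter.unusedSectionVars false

namespace CfsgLib.FusionBasics.Balance

open Cfsg Cfsg.FusionSystem CfsgLib.Alperin CfsgLib.FusionSub CfsgLib.FusionProduct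
open scoped Pointwise

/-- A normal subgroup is covered by a Sylow subgroup and its elements of order prime to `p`. -/
theorem normal_le_sylow_sup {A : Type*} [Group A] [Finite A] {p : ℕ} [Fact p.Prime]
    (N : Subgroup A) [N.Normal] (R : Sylow p A) :
    N ≤ (R : Subgroup A) ⊔ Subgroup.closure {x | x ∈ N ∧ (orderOf x).Coprime p} := by
  intro x hx
  set C := Subgroup.closure {x | x ∈ N ∧ (orderOf x).Coprime p} with hC
  haveI : C.Normal := ⟨fun n hn g => by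
    induction hn using Subgroup.closure_induction with
    | mem y hy =>
      refine Subgroup.subset_closure ⟨‹N.Normal›.conj_mem y hy.1 g, ?_⟩
      rw [show g * y * g⁻¹ = MulAut.conj g y from rfl, (MulAut.conj g).orderOf_eq]
      exact hy.2
    | one => simp
    | mul a b _ _ ha hb =>
      have := C.mul_mem ha hb
      simpa [mul_assoc] using this
    | inv a _ ha =>
      have := C.inv_mem ha
      simpa [mul_assoc] using this⟩
  set M := (R : Subgroup A) ⊔ C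
  obtain ⟨k, m, hkm, hm⟩ := CfsgLib.FusionExamples.exists_coprime_power (p := p) x
  have h1 : x ^ p ^ k ∈ C := Subgroup.subset_closure
    ⟨N.pow_mem hx _, hm.coprime_dvd_left (orderOf_dvd_of_pow_eq_one hkm)⟩
  haveI : N.Normal := ‹_›
  have h2 : (M.relIndex N).Coprime p := by
    refine Nat.Coprime.coprime_dvd_left ?_
      (((Nat.Prime.coprime_iff_not_dvd Fact.out).mpr R.not_dvd_index).symm)
    have h3 : M.relIndex N ∣ M.index := by
      have e1 := Subgroup.relIndex_mul_relIndex (M ⊓ N) M (M ⊔ N) inf_le_left le_sup_left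
      rw [← Subgroup.relIndex_mul_relIndex (M ⊓ N) N (M ⊔ N) inf_le_right le_sup_right,
        Subgroup.inf_relIndex_left, Subgroup.inf_relIndex_right, Subgroup.relIndex_sup_right M N,
        mul_comm] at e1
      rw [← mul_right_cancel₀
        (Subgroup.index_ne_zero_of_finite : (N.subgroupOf M).index ≠ 0) e1,
        ← Subgroup.relIndex_top_right M]
      exact ⟨(M ⊔ N).relIndex ⊤,
        (Subgroup.relIndex_mul_relIndex M (M ⊔ N) ⊤ le_sup_left le_top).symm⟩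
    exact h3.trans (Subgroup.index_dvd_of_le le_sup_left)
  have h4 : IsPGroup p (N ⧸ C.subgroupOf N) := by
    intro q
    induction q using QuotientGroup.induction_on with
    | _ a =>
      obtain ⟨k, m, hkm, hm⟩ := CfsgLib.FusionExamples.exists_coprime_power (p := p) (a : A)
      refine ⟨k, ?_⟩
      rw [← QuotientGroup.mk_pow]
      exact (QuotientGroup.eq_one_iff _).mpr (Subgroup.subset_closure
        ⟨N.pow_mem a.2 _, hm.coprime_dvd_left (orderOf_dvd_of_pow_eq_one hkm)⟩)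
  obtain ⟨j, hj⟩ := IsPGroup.iff_card.mp h4
  have h5 : M.relIndex N ∣ p ^ j := by
    rw [← hj, ← Subgroup.index_eq_card]
    exact Subgroup.index_dvd_of_le fun y hy =>
      Subgroup.mem_subgroupOf.mpr (le_sup_right (a := (R : Subgroup A))
        (Subgroup.mem_subgroupOf.mp hy))
  have h6 : M.relIndex N = 1 := Nat.eq_one_of_dvd_coprimes (h2.pow_right j) dvd_rfl h5
  exact Subgroup.relIndex_eq_one.mp h6 hx

universe u

variable {Ω : Type u} [Group Ω] {S T : Subgroup Ω} {F : FusionSystem S} {E : FusionSystem T}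
  {p : ℕ} [Fact p.Prime] [Finite S] {R : Subgroup Ω}

/-- `φ` is a map on `P T` followed by a map of a product system. -/
def Rel (F : FusionSystem S) (E : FusionSystem T) (p : ℕ) [Fact p.Prime] (P : Subgroup Ω)
    (φ : P →* Ω) : Prop :=
  ∃ β ∈ F.Hom (P ⊔ T), ∀ c : Ctx F E p β.range, ∃ d ∈ (dSys c).Hom (img β P),
    ∀ (x : P) (hx : β (Subgroup.inclusion le_sup_left x) ∈ img β P),
      d ⟨β (Subgroup.inclusion le_sup_left x), hx⟩ = φ x

theorem ctx_range (h : Setup F E p) {P : Subgroup Ω} {β : ↥(P ⊔ T) →* Ω}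
    (hβ : β ∈ F.Hom (P ⊔ T)) : Ctx F E p β.range :=
  ⟨h, fun _ hy => mem_range_of_stronglyClosed h.closed le_sup_right hβ hy, range_le hβ⟩

theorem range_le_img_sup (h : Setup F E p) {P : Subgroup Ω} {β : ↥(P ⊔ T) →* Ω}
    (hβ : β ∈ F.Hom (P ⊔ T)) : β.range ≤ img β P ⊔ T := by
  rintro _ ⟨y, rfl⟩
  have h1 : P ⊔ T ≤ ((img β P ⊔ T).comap β).map (P ⊔ T).subtype := sup_le
    (fun x hx => ⟨⟨x, Subgroup.mem_sup_left hx⟩, Subgroup.mem_sup_left ⟨_, hx, rfl⟩, rfl⟩)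
    (fun t ht => ⟨⟨t, Subgroup.mem_sup_right ht⟩,
      Subgroup.mem_sup_right (stronglyClosed_apply h.closed hβ _ ht), rfl⟩)
  obtain ⟨z, hz, hzy⟩ := h1 y.2
  obtain rfl : z = y := Subtype.ext hzy
  exact hz

/-- A map of the product system keeps supplements of `T`. -/
theorem le_range_sup (c : Ctx F E p R) {A : Subgroup Ω} (hA : R ≤ A ⊔ T) {d : A →* Ω}
    (hd : d ∈ (dSys c).Hom A) : R ≤ d.range ⊔ T := by
  obtain ⟨-, -, -, s, hs, hmod, -⟩ := (dSys_le_cSys c _ hd : IsCMap F E R d)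
  intro y hy
  have h1 : A ⊔ T ≤ (d.range ⊔ T).comap (MulAut.conj s).toMonoidHom := by
    refine sup_le (fun x hx => ?_) (fun t ht => ?_)
    · show s * x * s⁻¹ ∈ d.range ⊔ T
      rw [show s * x * s⁻¹ = d ⟨x, hx⟩ * ((s * x * s⁻¹)⁻¹ * d ⟨x, hx⟩)⁻¹ by group]
      exact Subgroup.mul_mem _ (Subgroup.mem_sup_left ⟨_, rfl⟩)
        (Subgroup.mem_sup_right (T.inv_mem (hmod ⟨x, hx⟩)))
    · exact Subgroup.mem_sup_right (c.conj_mem (c.rs hs) ht)
  have h2 := h1 (hA (R.mul_mem (R.mul_mem (R.inv_mem hs) hy) hs) : s⁻¹ * y * s ∈ A ⊔ T)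
  have e : s * (s⁻¹ * y * s) * s⁻¹ = y := by group
  exact e ▸ h2

theorem Rel.congr {P : Subgroup Ω} {φ χ : P →* Ω} (h : Rel F E p P φ) (hx : ∀ x, χ x = φ x) :
    Rel F E p P χ := by
  rwa [MonoidHom.ext hx]

theorem rel_comp (h : Setup F E p) {P Q : Subgroup Ω} {φ : P →* Ω} {ψ : Q →* Ω}
    (h₁ : Rel F E p P φ) (h₂ : Rel F E p Q ψ) (hr : φ.range = Q) {τ : P →* Ω}
    (hτ : ∀ x, τ x = ψ ⟨φ x, hr.le ⟨x, rfl⟩⟩) : Rel F E p P τ := by
  obtain ⟨β₁, hβ₁, h₁⟩ := h₁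
  obtain ⟨β₂, hβ₂, h₂⟩ := h₂
  have c₁ := ctx_range h hβ₁
  have c₂ := ctx_range h hβ₂
  obtain ⟨d₁, hd₁, hd₁x⟩ := h₁ c₁
  obtain ⟨d₂, hd₂, hd₂x⟩ := h₂ c₂
  have hd₁r : d₁.range ≤ Q := by
    rintro _ ⟨⟨_, a, ha, rfl⟩, rfl⟩
    exact hr.le ⟨⟨a, ha⟩, (hd₁x ⟨a, ha⟩ ⟨a, ha, rfl⟩).symm⟩
  have hR₁ : β₁.range ≤ Q ⊔ T :=
    (le_range_sup c₁ (range_le_img_sup h hβ₁) hd₁).trans (sup_le_sup_right hd₁r T)
  have hQ₁ : Q ≤ β₁.range := by
    intro y hy
    obtain ⟨x, rfl⟩ := hr.ge hy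
    rw [← hd₁x x ⟨_, x.2, rfl⟩]
    exact apply_mem hd₁ _
  have hm : ∀ z, β₁ z ∈ Q ⊔ T := fun z => hR₁ ⟨z, rfl⟩
  refine ⟨β₂.comp (β₁.codRestrict _ hm), F.comp_mem hβ₁ hβ₂ hm, fun c => ?_⟩
  set β := β₂.comp (β₁.codRestrict _ hm) with hβdef
  set β₂' := β₂.comp (Subgroup.inclusion hR₁) with hβ₂'
  have hin : ∀ y, β₂' y ∈ β.range := by
    rintro ⟨_, z, rfl⟩
    exact ⟨z, rfl⟩
  have hle : β₂.range ≤ β.range := by
    rintro _ ⟨z, rfl⟩
    obtain ⟨w, hw⟩ := (sup_le hQ₁ c₁.tr : Q ⊔ T ≤ β₁.range) z.2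
    exact ⟨w, congrArg β₂ (Subtype.ext hw)⟩
  obtain ⟨χ, hχ, hχx⟩ := exists_moved c₁ c (restrict_mem hβ₂ hR₁ : β₂' ∈ F.Hom _) hin hd₁
  have hsub : img β P ≤ img β₂' (img β₁ P) := by
    rintro _ ⟨a, ha, rfl⟩
    exact ⟨⟨β₁ a, ⟨a, rfl⟩⟩, ⟨a, ha, rfl⟩, rfl⟩
  set χ' := χ.comp (Subgroup.inclusion hsub) with hχ'
  have hval : ∀ (x : P) (hx : β (Subgroup.inclusion le_sup_left x) ∈ img β P),
      χ' ⟨β (Subgroup.inclusion le_sup_left x), hx⟩ =
        β₂ (Subgroup.inclusion le_sup_left ⟨φ x, hr.le ⟨x, rfl⟩⟩) := fun x hx => by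
    have e := hd₁x x ⟨_, x.2, rfl⟩
    refine (hχx ⟨β₁ (Subgroup.inclusion le_sup_left x), ⟨_, x.2, rfl⟩⟩ ⟨_, ⟨_, rfl⟩⟩
      ⟨φ x, hQ₁ (hr.le ⟨x, rfl⟩)⟩ (hsub hx) rfl e.symm).trans ?_
    exact congrArg β₂ (Subtype.ext rfl)
  have hχ'm : ∀ y, χ' y ∈ img β₂ Q := by
    rintro ⟨_, a, ha, rfl⟩
    exact ⟨_, hr.le ⟨⟨a, ha⟩, rfl⟩, (hval ⟨a, ha⟩ ⟨a, ha, rfl⟩).symm⟩
  refine ⟨d₂.comp (χ'.codRestrict _ hχ'm), (dSys c).comp_mem (restrict_mem hχ hsub)
    (dSys_mono c₂ c hle _ hd₂) hχ'm, fun x hx => ?_⟩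
  rw [hτ]
  exact (congrArg d₂ (Subtype.ext (hval x hx) : (⟨χ' ⟨_, hx⟩, hχ'm _⟩ : img β₂ Q) =
    ⟨_, ⟨_, hr.le ⟨x, rfl⟩, rfl⟩⟩)).trans (hd₂x ⟨φ x, hr.le ⟨x, rfl⟩⟩ _)

theorem rel_inv (h : Setup F E p) {P Q : Subgroup Ω} {φ : P →* Ω} {ψ : Q →* Ω}
    (h₁ : Rel F E p P φ) (hr : φ.range = Q) (hψ : ∀ x : P, ψ ⟨φ x, hr.le ⟨x, rfl⟩⟩ = x) :
    Rel F E p Q ψ := by
  obtain ⟨β₁, hβ₁, h₁⟩ := h₁
  have c₁ := ctx_range h hβ₁
  obtain ⟨d₁, hd₁, hd₁x⟩ := h₁ c₁
  have hd₁r : d₁.range = Q := by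
    refine le_antisymm ?_ fun y hy => ?_
    · rintro _ ⟨⟨_, a, ha, rfl⟩, rfl⟩
      exact hr.le ⟨⟨a, ha⟩, (hd₁x ⟨a, ha⟩ ⟨a, ha, rfl⟩).symm⟩
    · obtain ⟨x, rfl⟩ := hr.ge hy
      exact ⟨_, hd₁x x ⟨_, x.2, rfl⟩⟩
  have hR₁ : β₁.range ≤ Q ⊔ T :=
    (le_range_sup c₁ (range_le_img_sup h hβ₁) hd₁).trans (sup_le_sup_right hd₁r.le T)
  have hQT : Q ⊔ T ≤ β₁.range := sup_le (hd₁r ▸ range_le hd₁) c₁.tr
  obtain ⟨θ, hθ, -, hθx, -⟩ := exists_inverse hβ₁ rfl
  obtain ⟨θd, hθd, -, hθdx, -⟩ := exists_inverse hd₁ hd₁r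
  refine ⟨θ.comp (Subgroup.inclusion hQT), restrict_mem hθ hQT, fun c => ?_⟩
  set β := θ.comp (Subgroup.inclusion hQT) with hβ
  have hin : ∀ y, θ y ∈ β.range := fun y => ⟨⟨y, hR₁ y.2⟩, rfl⟩
  obtain ⟨χ, hχ, hχx⟩ := exists_moved c₁ c hθ hin hθd
  have hsub : img β Q ≤ img θ Q := by
    rintro _ ⟨a, ha, rfl⟩
    exact ⟨_, ha, rfl⟩
  refine ⟨_, restrict_mem hχ hsub, fun y hy => ?_⟩
  obtain ⟨x, hx⟩ := hr.ge y.2
  obtain rfl : y = ⟨φ x, hr.le ⟨x, rfl⟩⟩ := Subtype.ext hx.symm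
  rw [hψ]
  have hq : φ x ∈ β₁.range := hQT (Subgroup.mem_sup_left (hr.le ⟨x, rfl⟩))
  have hb : β₁ (Subgroup.inclusion le_sup_left x) =
      θd ⟨φ x, hr.le ⟨x, rfl⟩⟩ := by
    have e := hθdx ⟨β₁ (Subgroup.inclusion le_sup_left x), ⟨_, x.2, rfl⟩⟩
      (hd₁r.le ⟨_, rfl⟩)
    exact e.symm.trans (congrArg θd (Subtype.ext (hd₁x x _)))
  refine (hχx ⟨φ x, hr.le ⟨x, rfl⟩⟩ ⟨φ x, hq⟩ ⟨_, ⟨_, rfl⟩⟩ (hsub hy) rfl hb).trans ?_
  exact hθx (Subgroup.inclusion le_sup_left x) ⟨_, rfl⟩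

/-- Every restriction of `φ` is a map on a supplement of `T` after a map of a product system. -/
def Good (F : FusionSystem S) (E : FusionSystem T) (p : ℕ) [Fact p.Prime] (P : Subgroup Ω)
    (φ : P →* Ω) : Prop :=
  ∀ (P' : Subgroup Ω) (hle : P' ≤ P), Rel F E p P' (φ.comp (Subgroup.inclusion hle))

theorem closed_good (h : Setup F E p) : Closed F (Good F E p) where
  restrict hQ _ hg P' hle := (hg P' (hle.trans hQ)).congr fun _ => rfl
  comp {P Q φ ψ} _ _ hm hφ hψ P' hle :=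
    rel_comp h (hφ P' hle)
      (hψ (φ.comp (Subgroup.inclusion hle)).range (by rintro _ ⟨x, rfl⟩; exact hm _)) rfl
      fun _ => rfl
  inv {P Q φ ψ} _ _ hr hψ hφ Q' hle := by
    have hP' : (Q'.comap φ).map P.subtype ≤ P := Subgroup.map_subtype_le _
    refine rel_inv h (hφ _ hP') ?_ fun x => ?_
    · ext y
      constructor
      · rintro ⟨⟨_, a, ha, rfl⟩, rfl⟩
        exact ha
      · intro hy
        obtain ⟨a, rfl⟩ := hr.ge (hle hy)
        exact ⟨⟨a, a, hy, rfl⟩, rfl⟩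
    · exact hψ (Subgroup.inclusion hP' x) _

theorem rel_of_restrict (h : Setup F E p) {P Q : Subgroup Ω} (hle : P ≤ Q) {φ : Q →* Ω}
    (hφ : φ ∈ F.Hom Q) (hTQ : T ≤ Q) : Rel F E p P (φ.comp (Subgroup.inclusion hle)) := by
  refine ⟨φ.comp (Subgroup.inclusion (sup_le hle hTQ)), restrict_mem hφ _, fun c => ?_⟩
  exact ⟨(img _ P).subtype, incl_mem (dSys c) (img_le_range _ P), fun x _ =>
    congrArg φ (Subtype.ext rfl)⟩

/-- Every map is a map on a supplement of `T` followed by a map of a product system. -/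
theorem rel_of_mem (h : Setup F E p) {P : Subgroup Ω} {φ : P →* Ω} (hφ : φ ∈ F.Hom P) :
    Rel F E p P φ := by
  suffices hg : Good F E p P φ from (hg P le_rfl).congr fun x => congrArg φ (Subtype.ext rfl)
  haveI := h.finT
  have hcl := closed_good (F := F) (E := E) h
  refine closed_induction_centric h.isP h.sat hcl (fun Q hQn hQc big α hα => ?_) hφ
  have hQS := hQn.1
  have hαF := (mem_autGroup_iff F hQS).mp hα
  by_cases hTQ : T ≤ Q
  · exact fun P' hle => rel_of_restrict h hle hαF hTQ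
  have cS : Ctx F E p S := ⟨h, h.le, le_rfl⟩
  set V := Q ⊓ T with hV
  have hVQ : V ≤ Q := inf_le_left
  haveI := finite_of_le (hVQ.trans hQS)
  by_cases hc : E.IsCentric V
  swap
  · obtain ⟨X, hQX, ψ, hψ, hlt, hψx⟩ := exists_extension_of_noncentric cS h.sat
      (fun _ _ hh => hh) h.sub hQn hQc hc hα
    exact hcl.restrict_apply hQX hψ (big X ψ hψ hlt) fun x => (hψx x).symm
  let K : Subgroup (MulAut Q) :=
    { carrier := {b | (∀ x : Q, ((b x : Q) : Ω) * (x : Ω)⁻¹ ∈ T) ∧ ∃ e ∈ E.autGroup V,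
        ∀ x : V, ((e x : V) : Ω) = ((b (Subgroup.inclusion hVQ x) : Q) : Ω)}
      one_mem' := ⟨fun x => by simp, 1, one_mem _, fun x => rfl⟩
      mul_mem' := fun {b b'} hb hb' => by
        obtain ⟨hb1, e, he, hex⟩ := hb
        obtain ⟨hb1', e', he', hex'⟩ := hb'
        refine ⟨fun x => ?_, e * e', mul_mem he he', fun x => ?_⟩
        · have := T.mul_mem (hb1 (b' x)) (hb1' x)
          simpa [mul_assoc] using this
        · rw [MulAut.mul_apply, MulAut.mul_apply, hex]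
          exact congrArg (fun z : Q => ((b z : Q) : Ω)) (Subtype.ext (hex' x))
      inv_mem' := fun {b} hb => by
        obtain ⟨hb1, e, he, hex⟩ := hb
        refine ⟨fun x => ?_, e⁻¹, inv_mem he, fun x => ?_⟩
        · simpa using T.inv_mem (hb1 (b⁻¹ x))
        · have e1 : b (Subgroup.inclusion hVQ (e⁻¹ x)) = Subgroup.inclusion hVQ x :=
            Subtype.ext ((hex (e⁻¹ x)).symm.trans (by rw [MulAut.apply_inv_self]; rfl))
          rw [← e1, MulAut.inv_apply_self]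
          rfl }
  have hres : ∀ a ∈ F.autGroup Q, ∃ v ∈ F.autGroup V,
      ∀ x : V, ((v x : V) : Ω) = ((a (Subgroup.inclusion hVQ x) : Q) : Ω) := fun a ha =>
    exists_aut_of_hom' F (restrict_mem ((mem_autGroup_iff F hQS).mp ha) hVQ) fun x =>
      ⟨(a _).2, stronglyClosed_apply h.closed ((mem_autGroup_iff F hQS).mp ha) _ x.2.2⟩
  have hK : ∀ a ∈ F.autGroup Q, ∀ b ∈ K, a * b * a⁻¹ ∈ K := by
    intro a ha b hb
    obtain ⟨hb1, e, he, hex⟩ := hb
    refine ⟨fun x => ?_, ?_⟩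
    · have h1 : ((b (a⁻¹ x) * (a⁻¹ x)⁻¹ : Q) : Ω) ∈ T := hb1 (a⁻¹ x)
      have h2 := stronglyClosed_apply h.closed ((mem_autGroup_iff F hQS).mp ha) _ h1
      simpa using h2
    obtain ⟨v, hv, hvx⟩ := hres a ha
    refine ⟨v * e * v⁻¹, CfsgLib.FusionBasics.Meet.conj_mem_sub h.inv inf_le_right hv he,
      fun x => ?_⟩
    have e1 : a⁻¹ (Subgroup.inclusion hVQ x) = Subgroup.inclusion hVQ (v⁻¹ x) := by
      refine a.injective ?_
      rw [MulAut.apply_inv_self]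
      exact Subtype.ext ((hvx (v⁻¹ x)).symm.trans (by rw [MulAut.apply_inv_self]; rfl)).symm
    rw [MulAut.mul_apply, MulAut.mul_apply, MulAut.mul_apply, MulAut.mul_apply, e1, hvx]
    exact congrArg (fun z : Q => ((a z : Q) : Ω)) (Subtype.ext (hex (v⁻¹ x)))
  obtain ⟨κ, hκ, χ, hχ, hκχ, X, hQX, ψ, hXN, hψ, hext, hgX⟩ :=
    frattini_extend h.isP h.sat hQn K hK hα
  -- an element of `T` outside `Q` inducing an element of `K`
  obtain ⟨g, hgQT, hgN, hgQ⟩ := exists_mem_normalizer_not_mem h.isP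
    (lt_of_le_of_ne (le_sup_left : Q ≤ Q ⊔ T) fun e => hTQ (le_sup_right.trans e.ge))
    (sup_le hQS h.le)
  have hnT : Q ≤ Subgroup.normalizer (T : Set Ω) :=
    hQS.trans (stronglyClosed_le_normalizer h.closed)
  obtain ⟨a, ha, t, ht, rfl⟩ : g ∈ (Q : Set Ω) * (T : Set Ω) := by
    rw [← Subgroup.coe_mul_of_left_le_normalizer_right Q T hnT]
    exact hgQT
  have htN : t ∈ Subgroup.normalizer (Q : Set Ω) := by
    have := Subgroup.mul_mem _ (Subgroup.inv_mem _ (Subgroup.le_normalizer ha)) hgN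
    rwa [inv_mul_cancel_left] at this
  have htV : t ∈ Subgroup.normalizer (V : Set Ω) :=
    (normalizerIn_le_inf cS ⟨h.le ht, htN⟩).2
  have htK : conjAut Q t htN ∈ K := by
    refine ⟨fun x => ?_, conjAut V t htV,
      autInducedBy_le_autGroup E inf_le_right (conjAut_mem ht htV), fun x => rfl⟩
    show t * (x : Ω) * t⁻¹ * (x : Ω)⁻¹ ∈ T
    have := T.mul_mem ht (h.conj_mem (hQS x.2) (T.inv_mem ht))
    simpa [mul_assoc] using this
  have htX : t ∈ X := hgX t (h.le ht) htN htK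
  have hlt : Q < X := lt_of_le_of_ne hQX fun e => hgQ (Q.mul_mem ha (e.ge htX))
  have hgχ : Good F E p Q (Q.subtype.comp χ.toMonoidHom) :=
    hcl.restrict_apply hQX hψ
      (big X ψ hψ (card_lt_card (hXN.trans (normalizerIn_le S Q)) hlt)) fun x => (hext x).symm
  -- the automorphisms that are good
  let B : Subgroup (MulAut Q) :=
    { carrier := {b | b ∈ F.autGroup Q ∧ Good F E p Q (Q.subtype.comp b.toMonoidHom)}
      one_mem' := ⟨one_mem _, fun P' hle => by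
        refine ⟨(P' ⊔ T).subtype, incl_mem F (sup_le (hle.trans hQS) h.le), fun c => ?_⟩
        exact ⟨(img _ P').subtype, incl_mem (dSys c) (img_le_range _ P'), fun x _ => rfl⟩⟩
      mul_mem' := fun {b b'} hb hb' => ⟨mul_mem hb.1 hb'.1, by
        have := hcl.comp ((mem_autGroup_iff F hQS).mp hb'.1) ((mem_autGroup_iff F hQS).mp hb.1)
          (fun x => (b' x).2) hb'.2 hb.2
        exact this⟩
      inv_mem' := fun {b} hb => ⟨inv_mem hb.1,
        hcl.inv ((mem_autGroup_iff F hQS).mp hb.1) ((mem_autGroup_iff F hQS).mp (inv_mem hb.1))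
          (range_subtype_comp_aut b) (fun x hx => congrArg Subtype.val
            (show b⁻¹ ⟨(b x : Ω), hx⟩ = x from MulAut.inv_apply_self Q b x)) hb.2⟩ }
  have hBκ : κ ∈ B := by
    haveI := finite_autGroup F hQS
    set A := F.autGroup Q
    haveI : (K.subgroupOf A).Normal := ⟨fun n hn a => Subgroup.mem_subgroupOf.mpr (by
      simpa using hK (a : MulAut Q) a.2 (n : MulAut Q) (Subgroup.mem_subgroupOf.mp hn))⟩
    obtain ⟨-, R₀, hR₀⟩ := (centralized_automized_of_fullyNormalized h.isP h.sat hQn).2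
    refine (normal_le_sylow_sup (K.subgroupOf A) R₀).trans (sup_le (fun b hb => ?_)
      ((Subgroup.closure_le _).mpr fun b hb => ?_))
      (Subgroup.mem_subgroupOf.mpr hκ.1 : (⟨κ, hκ.2⟩ : A) ∈ K.subgroupOf A)
      |> (fun hh : (⟨κ, hκ.2⟩ : A) ∈ B.subgroupOf A => hh)
    · -- automorphisms induced by `S`
      rw [hR₀] at hb
      obtain ⟨s, hs, hsx⟩ := mem_autInducedBy_iff.mp (Subgroup.mem_subgroupOf.mp hb)
      refine Subgroup.mem_subgroupOf.mpr ⟨b.2, fun P' hle => ?_⟩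
      refine ⟨conjHom (P' ⊔ T) s, F.conj_mem (sup_le (hle.trans hQS) h.le) hs, fun c => ?_⟩
      exact ⟨(img _ P').subtype, incl_mem (dSys c) (img_le_range _ P'), fun x _ =>
        (hsx (Subgroup.inclusion hle x)).symm⟩
    · -- automorphisms of order prime to `p`
      obtain ⟨hbK, hbco⟩ := hb
      obtain ⟨hb1, e, he, hex⟩ := Subgroup.mem_subgroupOf.mp hbK
      refine Subgroup.mem_subgroupOf.mpr ⟨b.2, fun P' hle => ?_⟩
      refine ⟨(P' ⊔ T).subtype, incl_mem F (sup_le (hle.trans hQS) h.le), fun c => ?_⟩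
      set R := (P' ⊔ T).subtype.range with hR
      have hPR : P' ≤ R := fun x hx => ⟨⟨x, Subgroup.mem_sup_left hx⟩, rfl⟩
      set Q' := Q ⊓ R with hQ'
      have hQ'Q : Q' ≤ Q := inf_le_left
      haveI := finite_of_le (hQ'Q.trans hQS)
      obtain ⟨b', hb', hb'x⟩ := exists_aut_of_hom' F
        (restrict_mem ((mem_autGroup_iff F hQS).mp b.2) hQ'Q) fun x => ⟨(( b : MulAut Q) _).2, by
          have := R.mul_mem (c.tr (hb1 (Subgroup.inclusion hQ'Q x))) x.2.2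
          simpa using this⟩
      have hpow : ∀ (n : ℕ) (x : Q'), (((b' ^ n) x : Q') : Ω) =
          (((b : MulAut Q) ^ n) (Subgroup.inclusion hQ'Q x) : Q) := by
        intro n
        induction n with
        | zero => intro x; rfl
        | succ n ih =>
          intro x
          rw [pow_succ', pow_succ', MulAut.mul_apply, MulAut.mul_apply, hb'x]
          exact congrArg (fun z : Q => (((b : MulAut Q) z : Q) : Ω)) (Subtype.ext (ih x))
      have hco' : (orderOf b').Coprime p := hbco.coprime_dvd_left (orderOf_dvd_of_pow_eq_one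
        (MulEquiv.ext fun x => Subtype.ext (by
          rw [hpow, ← SubgroupClass.coe_pow, pow_orderOf_eq_one]; rfl)))
      have hVQ' : V ≤ Q' := le_inf hVQ (inf_le_right.trans c.tr)
      have hQ'V : Q' ⊓ T = V := le_antisymm (inf_le_inf_right T hQ'Q) (le_inf hVQ' inf_le_right)
      have hbD := coprime_mem_dSys c hc hVQ' hQ'V.le
        (hQ'V ▸ le_normalizer_inf c inf_le_right) hb' hco'
        (fun x => by
          show (x : Ω)⁻¹ * ((b' x : Q') : Ω) ∈ T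
          have h1 := h.conj_mem' (hQS x.2.1) (hb1 (Subgroup.inclusion hQ'Q x))
          rw [show ((b' x : Q') : Ω) = _ from hb'x x]
          simpa [mul_assoc] using h1)
        he fun x => (hb'x _).trans (hex x).symm
      have hP'Q' : P' ≤ Q' := le_inf hle hPR
      have hsub : img (P' ⊔ T).subtype P' ≤ Q' := by
        rintro _ ⟨x, hx, rfl⟩
        exact hP'Q' hx
      refine ⟨_, restrict_mem ((mem_autGroup_iff _ inf_le_right).mp hbD) hsub, fun x hx => ?_⟩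
      exact hb'x (Subgroup.inclusion hP'Q' x)
  have := hcl.comp ((mem_autGroup_iff F hQS).mp hχ) ((mem_autGroup_iff F hQS).mp hκ.2)
    (fun x => (χ x).2) hgχ hBκ.2
  rw [hκχ]
  exact this

end CfsgLib.FusionBasics.Balance
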