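import Cfsg.Agent.Lib.FusionBasics.Balance.Frattini
import Cfsg.Agent.Lib.FusionDichotomy.Constrained
import Cfsg.Agent.Lib.FusionBasics.Central.Residual
import Cfsg.Agent.S5098

/-!
The normalizer of `X` in the product of `X` with a normal subsystem is normal in the normalizer
system of `X`.
-/

set_option autoImplicit false
set_option linter.style.haveILetI false
set_option linter.unusedSectionVars false

namespace CfsgLib.FusionBasics.Balance

open Cfsg Cfsg.FusionSystem CfsgLib.Alperin CfsgLib.FusionSub CfsgLib.FusionProduct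
open CfsgLib.FusionBasics
open scoped Pointwise

universe u

variable {Ω : Type u} [Group Ω] {S T : Subgroup Ω} {F : FusionSystem S} {E : FusionSystem T}
  {p : ℕ} [Fact p.Prime] [Finite S] {R X : Subgroup Ω}

/-- `R` is `X T`. -/
structure XCtx (F : FusionSystem S) (E : FusionSystem T) (p : ℕ) (X R : Subgroup Ω) : Prop
    extends Ctx F E p R where
  hX : F.IsFullyNormalized X
  eqR : R = X ⊔ T

namespace XCtx

variable (c : XCtx F E p X R)
include c

theorem xR : X ≤ R := c.eqR.ge.trans' le_sup_left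

theorem le_normT : X ≤ Subgroup.normalizer (T : Set Ω) :=
  c.hX.1.trans (stronglyClosed_le_normalizer c.closed)

theorem exists_mul {y : Ω} (hy : y ∈ R) : ∃ x ∈ X, ∃ t ∈ T, x * t = y := by
  have h1 : y ∈ (X : Set Ω) * (T : Set Ω) := by
    rw [← Subgroup.coe_mul_of_left_le_normalizer_right X T c.le_normT]
    exact c.eqR.le hy
  obtain ⟨x, hx, t, ht, e⟩ := h1
  exact ⟨x, hx, t, ht, e⟩

theorem exists_mul_normalizer {y : Ω} (hy : y ∈ normalizerIn R X) :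
    ∃ x ∈ X, ∃ t ∈ normalizerIn T X, x * t = y := by
  obtain ⟨x, hx, t, ht, rfl⟩ := c.exists_mul hy.1
  refine ⟨x, hx, t, ⟨ht, ?_⟩, rfl⟩
  have := Subgroup.mul_mem _ (Subgroup.inv_mem _ (Subgroup.le_normalizer hx)) hy.2
  rwa [inv_mul_cancel_left] at this

theorem inf_le_T : normalizerIn T X ≤ normalizerIn R X := inf_le_inf_right _ c.tr

/-- Elements of `C_S(X)` commute with `R` modulo `T`. -/
theorem conj_mem_of_centralizes {y v : Ω} (hy : y ∈ R) (hvS : v ∈ S)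
    (hv : v ∈ Subgroup.centralizer (X : Set Ω)) : v⁻¹ * (y * v * y⁻¹) ∈ T := by
  obtain ⟨x, hx, t, ht, rfl⟩ := c.exists_mul hy
  have h1 : v⁻¹ * t * v * t⁻¹ ∈ T := T.mul_mem (c.conj_mem' hvS ht) (T.inv_mem ht)
  have h2 := c.conj_mem (c.hX.1 hx) h1
  have hxv : x * v = v * x := hv x hx
  have e : v⁻¹ * (x * t * v * (x * t)⁻¹) = x * (v⁻¹ * t * v * t⁻¹) * x⁻¹ := by
    have e1 : v⁻¹ * x = x * v⁻¹ := by
      rw [eq_comm, eq_inv_mul_iff_mul_eq, ← mul_assoc, ← hxv, mul_inv_cancel_right]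
    calc v⁻¹ * (x * t * v * (x * t)⁻¹) = (v⁻¹ * x) * (t * v * t⁻¹) * x⁻¹ := by group
      _ = x * v⁻¹ * (t * v * t⁻¹) * x⁻¹ := by rw [e1]
      _ = _ := by group
  exact e ▸ h2

/-- `X` is fully normalized in the product system. -/
theorem fullyNormalized : (dSys c.toCtx).IsFullyNormalized X := by
  refine ⟨c.xR, ?_⟩
  rintro _ ⟨φ, hφ, rfl⟩
  have hRX' : R ≤ φ.range ⊔ T := le_range_sup c.toCtx c.eqR.le hφ
  have hconj : F.IsConj X φ.range := ⟨φ, dSys_le_F c.toCtx _ hφ, rfl⟩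
  obtain ⟨χ, hχ, hχN, hχX⟩ :=
    exists_hom_normalizerIn_of_fullyNormalized c.isP c.sat c.hX (CfsgLib.Alperin.IsConj.symm hconj)
  have hle : normalizerIn R φ.range ≤ normalizerIn S φ.range := inf_le_inf_right _ c.rs
  have hXS : φ.range ≤ S := (range_le hφ).trans c.rs
  haveI : Finite (normalizerIn R X) :=
    finite_of_le ((normalizerIn_le R X).trans c.rs)
  refine Nat.card_le_card_of_injective
    (fun y => ⟨χ (Subgroup.inclusion hle y), ?_, (hχN _).2⟩)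
    fun a b hab => Subgroup.inclusion_injective hle
      (F.injective_of_mem hχ (congrArg (fun z : ↥(normalizerIn R X) => (z : Ω)) hab))
  have h1 : (y : Ω) ∈ (φ.range : Set Ω) * (T : Set Ω) := by
    rw [← Subgroup.coe_mul_of_left_le_normalizer_right φ.range T
      (hXS.trans (stronglyClosed_le_normalizer c.closed))]
    exact hRX' y.2.1
  obtain ⟨x', hx', t, ht, e⟩ := h1
  have hx'N : x' ∈ normalizerIn S φ.range := ⟨hXS hx', Subgroup.le_normalizer hx'⟩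
  have htN : t ∈ normalizerIn S φ.range := ⟨c.le ht, by
    have := Subgroup.mul_mem _ (Subgroup.inv_mem _ hx'N.2) (hle y.2).2
    rw [← e] at this
    simpa using this⟩
  rw [show Subgroup.inclusion hle y = (⟨x', hx'N⟩ : ↥(normalizerIn S φ.range)) * ⟨t, htN⟩ from
    Subtype.ext e.symm, map_mul]
  exact R.mul_mem (c.xR (hχX.le ⟨_, hx', rfl⟩)) (c.tr (stronglyClosed_apply c.closed hχ _ ht))

/-- A map of `F` between subgroups of `R` containing `X` is a map on `R` after a map of the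
product system. -/
theorem exists_decomp {A : Subgroup Ω} (hXA : X ≤ A) (hAR : A ≤ R) {ψ : A →* Ω}
    (hψ : ψ ∈ F.Hom A) (hψR : ∀ x, ψ x ∈ R) :
    ∃ β ∈ F.Hom R, (∀ y, β y ∈ R) ∧ ∃ d ∈ (dSys c.toCtx).Hom (img β A),
      ∀ (x : A) (hx : β (Subgroup.inclusion hAR x) ∈ img β A),
        d ⟨β (Subgroup.inclusion hAR x), hx⟩ = ψ x := by
  obtain ⟨β, hβ, h⟩ := rel_of_mem c.toSetup hψ
  have c' := ctx_range c.toSetup hβ
  obtain ⟨d, hd, hdx⟩ := h c'
  have hdr : d.range = ψ.range := by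
    refine le_antisymm ?_ ?_
    · rintro _ ⟨⟨_, a, ha, rfl⟩, rfl⟩
      exact ⟨⟨a, ha⟩, (hdx ⟨a, ha⟩ ⟨a, ha, rfl⟩).symm⟩
    · rintro _ ⟨x, rfl⟩
      exact ⟨_, hdx x ⟨_, x.2, rfl⟩⟩
  have h1 : β.range ≤ R := (le_range_sup c' (range_le_img_sup c.toSetup hβ) hd).trans
    (sup_le (hdr.le.trans (by rintro _ ⟨x, rfl⟩; exact hψR x)) c.tr)
  have hle : R ≤ A ⊔ T := c.eqR.le.trans (sup_le_sup_right hXA T)
  refine ⟨β.comp (Subgroup.inclusion hle), restrict_mem hβ hle, fun y => h1 ⟨_, rfl⟩, ?_⟩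
  have hsub : img (β.comp (Subgroup.inclusion hle)) A ≤ img β A := by
    rintro _ ⟨a, ha, rfl⟩
    exact ⟨_, ha, rfl⟩
  exact ⟨_, restrict_mem (dSys_mono c' c.toCtx h1 _ hd) hsub, fun x hx =>
    (congrArg d (Subtype.ext rfl)).trans (hdx x ⟨_, x.2, rfl⟩)⟩

end XCtx

/-- The map with the same values as a product map inside `N_R(X)` fixing `X`. -/
theorem mem_normalizer_dSys (c : XCtx F E p X R)
    {N₁ : FusionSystem (normalizerIn R X)} (hN₁ : (dSys c.toCtx).IsNormalizerSystem X N₁)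
    {A P : Subgroup Ω} {ψ : A →* Ω} (hψ : ψ ∈ (dSys c.toCtx).Hom A) (hXA : X ≤ A)
    (hψX : (X.subgroupOf A).map ψ = X) (hPA : P ≤ A) (hP : P ≤ normalizerIn R X) {φ : P →* Ω}
    (hx : ∀ x : P, φ x = ψ ⟨x, hPA x.2⟩) : φ ∈ N₁.Hom P := by
  haveI : Finite R := finite_of_le c.rs
  rw [show φ = ψ.comp (Subgroup.inclusion hPA) from MonoidHom.ext hx, hN₁]
  exact CfsgLib.FusionDichotomy.mem_normalizer_of_map hψ hXA hψX hPA hP

set_option maxHeartbeats 1000000 in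
/-- The normalizer of `X` in the product system is normal in the normalizer system of `X`. -/
theorem normalizer_isNormalIn (c : XCtx F E p X R) {N : FusionSystem (normalizerIn S X)}
    (hN : F.IsNormalizerSystem X N) {N₁ : FusionSystem (normalizerIn R X)}
    (hN₁ : (dSys c.toCtx).IsNormalizerSystem X N₁) : N₁.IsNormalIn N p := by
  haveI : Finite R := finite_of_le c.rs
  have hRp : IsPGroup p R := isPGroup_of_le c.isP c.rs
  have hXn := c.fullyNormalized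
  have hWR : (normalizerIn R X) ≤ R := normalizerIn_le R X
  have hWN : (normalizerIn R X) ≤ normalizerIn S X := inf_le_inf_right _ c.rs
  have hXW : X ≤ (normalizerIn R X) := le_inf c.xR Subgroup.le_normalizer
  haveI := finite_of_le (hWR.trans c.rs)
  have hN₁s := Cfsg.Agent.S5098.result p hRp (dSys c.toCtx) (dSys_isSaturated c.toCtx) X hXn N₁ hN₁
  have hNs := Cfsg.Agent.S5098.result p c.isP F c.sat X c.hX N hN
  have hsub : N₁.IsSubsystemOf N := by
    intro P φ hφ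
    rw [hN₁ P] at hφ
    obtain ⟨hφD, hP, hφv, ψ, hψ, hψx, hψX⟩ := hφ
    rw [hN P]
    exact ⟨dSys_le_F c.toCtx _ hφD, hP.trans hWN, fun x => hWN (hφv x), ψ,
      dSys_le_F c.toCtx _ hψ, hψx, hψX⟩
  -- maps of `N` between subgroups of `(normalizerIn R X)` stay in `(normalizerIn R X)`
  have hclosed : ∀ {A : Subgroup Ω} {ψ : A →* Ω}, ψ ∈ F.Hom A → X ≤ A →
      (X.subgroupOf A).map ψ = X → ∀ x : A, (x : Ω) ∈ (normalizerIn R X) → ψ x ∈ (normalizerIn R X) := by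
    intro A ψ hψ hXA hψX x hxW
    have hN' : ψ x ∈ normalizerIn S X := apply_mem_normalizerIn hψ hXA hψX x hxW.2
    obtain ⟨a, ha, t, ht, e⟩ := c.exists_mul_normalizer hxW
    have htA : t ∈ A := by
      have := A.mul_mem (A.inv_mem (hXA ha)) x.2
      rwa [← e, inv_mul_cancel_left] at this
    refine ⟨?_, hN'.2⟩
    rw [show x = (⟨a, hXA ha⟩ : A) * ⟨t, htA⟩ from Subtype.ext e.symm, map_mul]
    exact R.mul_mem (c.xR (hψX.le ⟨_, ha, rfl⟩)) (c.tr (stronglyClosed_apply c.closed hψ _ ht.1))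
  have hWsc : N.StronglyClosed (normalizerIn R X) := by
    refine ⟨hWN, fun Q hQ φ hφ x => ?_⟩
    rw [hN Q] at hφ
    obtain ⟨-, -, -, ψ, hψ, hψx, hψX⟩ := hφ
    rw [← hψx]
    exact hclosed hψ le_sup_right hψX _ (hQ x.2)
  -- automorphisms of `(normalizerIn R X)` in `N` fix `X`
  have hautX : ∀ α ∈ N.autGroup (normalizerIn R X), ((normalizerIn R X).subtype.comp α.toMonoidHom) ∈ F.Hom (normalizerIn R X) ∧
      (X.subgroupOf (normalizerIn R X)).map ((normalizerIn R X).subtype.comp α.toMonoidHom) = X := by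
    intro α hα
    have h1 := (mem_autGroup_iff N hWN).mp hα
    rw [hN (normalizerIn R X)] at h1
    obtain ⟨hF, -, -, ψ, -, hψx, hψX⟩ := h1
    refine ⟨hF, le_antisymm ?_ fun y hy => ?_⟩
    · rintro _ ⟨w, hw, rfl⟩
      rw [← hψx w]
      exact hψX.le ⟨_, hw, rfl⟩
    · obtain ⟨⟨z, hz⟩, hzX, rfl⟩ := hψX.ge hy
      refine ⟨⟨z, hXW hzX⟩, hzX, ?_⟩
      exact ((hψx ⟨z, hXW hzX⟩).symm.trans (congrArg ψ (Subtype.ext rfl)))
  -- invariance
  have hinv : InvCond N₁ N := by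
    intro P hPW φ hφ α hα
    obtain ⟨hαF, hαX⟩ := hautX α hα
    have hφ' := hφ
    rw [hN₁ P] at hφ'
    obtain ⟨-, -, -, ψ, hψ, hψx, hψX⟩ := hφ'
    obtain ⟨β, hβ, hβR, d, hd, hdx⟩ := c.exists_decomp hXW hWR hαF (fun x => hWR (α x).2)
    set αh := (normalizerIn R X).subtype.comp α.toMonoidHom with hαh
    obtain ⟨θd, hθd, -, hθdx, -⟩ := exists_inverse hd rfl
    obtain ⟨χ₀, hχ₀, hχ₀x⟩ := exists_moved c.toCtx c.toCtx hβ hβR hψ
    have hle : P ⊔ X ≤ (normalizerIn R X) := sup_le hPW hXW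
    set A := ((P ⊔ X).subgroupOf (normalizerIn R X)).map αh with hA
    have hAd : A ≤ d.range := by
      rintro _ ⟨w, -, rfl⟩
      exact ⟨_, hdx w ⟨_, w.2, rfl⟩⟩
    have hm1 : ∀ y : A, θd (Subgroup.inclusion hAd y) ∈ img β (P ⊔ X) := by
      rintro ⟨_, w, hw, rfl⟩
      refine ⟨Subgroup.inclusion hWR w, hw, ?_⟩
      exact (hθdx ⟨_, ⟨Subgroup.inclusion hWR w, w.2, rfl⟩⟩ ⟨_, rfl⟩).symm.trans
        (congrArg θd (Subtype.ext (hdx w _)))
    set χ₁ := χ₀.comp ((θd.comp (Subgroup.inclusion hAd)).codRestrict _ hm1) with hχ₁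
    have hχ₁m : χ₁ ∈ (dSys c.toCtx).Hom A :=
      (dSys c.toCtx).comp_mem (restrict_mem hθd hAd) hχ₀ hm1
    have hψW : ∀ z : ↥(P ⊔ X), ψ z ∈ (normalizerIn R X) := fun z =>
      hclosed (dSys_le_F c.toCtx _ hψ) le_sup_right hψX z (hle z.2)
    have hval : ∀ (z : ↥(P ⊔ X)) (hz : αh ⟨z, hle z.2⟩ ∈ A),
        χ₁ ⟨αh ⟨z, hle z.2⟩, hz⟩ = β ⟨ψ z, hWR (hψW z)⟩ := by
      intro z hz
      have e1 : θd (Subgroup.inclusion hAd ⟨αh ⟨z, hle z.2⟩, hz⟩) = β ⟨z, hWR (hle z.2)⟩ :=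
        ((hθdx ⟨_, ⟨_, hle z.2, rfl⟩⟩ ⟨_, rfl⟩).symm.trans
          (congrArg θd (Subtype.ext (hdx ⟨z, hle z.2⟩ ⟨_, hle z.2, rfl⟩)))).symm
      show χ₀ ⟨_, _⟩ = _
      exact (congrArg χ₀ (Subtype.ext e1 :
        (⟨θd (Subgroup.inclusion hAd ⟨αh ⟨z, hle z.2⟩, hz⟩), hm1 _⟩ : img β (P ⊔ X)) =
          ⟨β ⟨z, hWR (hle z.2)⟩, ⟨_, z.2, rfl⟩⟩)).trans (hχ₀x z _ _ _ rfl rfl)
    have hm2 : ∀ y : A, χ₁ y ∈ img β (normalizerIn R X) := by
      rintro ⟨_, w, hw, rfl⟩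
      exact Eq.subst (motive := fun v => v ∈ img β (normalizerIn R X))
        (hval ⟨w, hw⟩ ⟨w, hw, rfl⟩).symm ⟨_, hψW ⟨w, hw⟩, rfl⟩
    set χ₂ := d.comp (χ₁.codRestrict _ hm2) with hχ₂
    have hχ₂m : χ₂ ∈ (dSys c.toCtx).Hom A := (dSys c.toCtx).comp_mem hχ₁m hd hm2
    have hval2 : ∀ (z : ↥(P ⊔ X)) (hz : αh ⟨z, hle z.2⟩ ∈ A),
        χ₂ ⟨αh ⟨z, hle z.2⟩, hz⟩ = αh ⟨ψ z, hψW z⟩ := fun z hz =>
      (congrArg d (Subtype.ext (hval z hz) : (⟨χ₁ ⟨αh ⟨z, hle z.2⟩, hz⟩, hm2 _⟩ : img β (normalizerIn R X)) =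
        ⟨β ⟨ψ z, hWR (hψW z)⟩, ⟨_, hψW z, rfl⟩⟩)).trans (hdx ⟨ψ z, hψW z⟩ _)
    have hXA : X ≤ A := fun y hy => by
      obtain ⟨w, hw, rfl⟩ := hαX.ge hy
      exact ⟨w, Subgroup.mem_sup_right hw, rfl⟩
    have hχX : (X.subgroupOf A).map χ₂ = X := by
      ext y
      constructor
      · rintro ⟨⟨v, hv⟩, hvX, rfl⟩
        obtain ⟨w, hw, hwv⟩ := hαX.ge hvX
        obtain rfl : v = αh w := hwv.symm
        rw [hval2 ⟨w, Subgroup.mem_sup_right hw⟩]
        exact hαX.le ⟨_, hψX.le ⟨_, hw, rfl⟩, rfl⟩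
      · intro hy
        obtain ⟨u, hu, rfl⟩ := hαX.ge hy
        obtain ⟨w, hw, hwu⟩ := hψX.ge hu
        refine ⟨⟨αh ⟨w, hle w.2⟩, ⟨_, w.2, rfl⟩⟩, hαX.le ⟨_, hw, rfl⟩, ?_⟩
        exact (hval2 w ⟨_, w.2, rfl⟩).trans (congrArg αh (Subtype.ext hwu))
    set Q := (P.subgroupOf (normalizerIn R X)).map αh with hQ
    have hQA : Q ≤ A := by
      rintro _ ⟨w, hw, rfl⟩
      exact ⟨w, Subgroup.mem_sup_left hw, rfl⟩
    have hQW : Q ≤ (normalizerIn R X) := by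
      rintro _ ⟨w, -, rfl⟩
      exact (α w).2
    refine ⟨χ₂.comp (Subgroup.inclusion hQA),
      mem_normalizer_dSys c hN₁ hχ₂m hXA hχX hQA hQW fun x => rfl, fun x hφx hαx => ?_⟩
    show χ₂ ⟨αh ⟨x, hle (Subgroup.mem_sup_left x.2)⟩, _⟩ = αh ⟨φ x, hφx⟩
    exact (hval2 (Subgroup.inclusion le_sup_left x) _).trans
      (congrArg αh (Subtype.ext (hψx x)))
  -- the Frattini decomposition
  have hfr : ∀ (P : Subgroup Ω), P ≤ (normalizerIn R X) → ∀ φ : P →* Ω, φ ∈ N.Hom P → Decomp N₁ N P φ := by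
    intro P hPW φ hφ
    rw [hN P] at hφ
    obtain ⟨-, -, -, ψ, hψ, hψx, hψX⟩ := hφ
    have hle : P ⊔ X ≤ (normalizerIn R X) := sup_le hPW hXW
    have hAR : P ⊔ X ≤ R := hle.trans hWR
    have hψW : ∀ z : ↥(P ⊔ X), ψ z ∈ (normalizerIn R X) := fun z => hclosed hψ le_sup_right hψX z (hle z.2)
    obtain ⟨β, hβ, hβR, d, hd, hdx⟩ := c.exists_decomp le_sup_right hAR hψ
      (fun z => hWR (hψW z))
    have hβr : β.range = R := Subgroup.eq_of_le_of_card_ge (by rintro _ ⟨y, rfl⟩; exact hβR y)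
      (card_range_eq (F.injective_of_mem hβ)).ge
    set X'' := img β X with hX''
    have hX''A : X'' ≤ img β (P ⊔ X) := img_mono β le_sup_right
    have hX''R : X'' ≤ R := (img_le_range β X).trans hβr.le
    set d' := d.comp (Subgroup.inclusion hX''A) with hd'
    have hd'r : d'.range = X := by
      ext y
      constructor
      · rintro ⟨⟨_, a, ha, rfl⟩, rfl⟩
        refine Eq.subst (motive := fun v => v ∈ X)
          (hdx ⟨a, Subgroup.mem_sup_right ha⟩ ⟨_, Subgroup.mem_sup_right ha, rfl⟩).symm ?_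
        exact hψX.le ⟨_, ha, rfl⟩
      · intro hy
        obtain ⟨w, hw, rfl⟩ := hψX.ge hy
        exact ⟨⟨_, ⟨_, hw, rfl⟩⟩, hdx w ⟨_, w.2, rfl⟩⟩
    obtain ⟨g, hg, hgN, hgX⟩ := exists_hom_normalizerIn_of_fullyNormalized hRp
      (dSys_isSaturated c.toCtx) hXn ⟨d', restrict_mem hd hX''A, hd'r⟩
    have hβN : ∀ w : (normalizerIn R X), β (Subgroup.inclusion hWR w) ∈ normalizerIn R X'' := fun w =>
      ⟨hβR _, (apply_mem_normalizerIn hβ c.xR rfl _ w.2.2).2⟩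
    set gβ := g.comp ((β.comp (Subgroup.inclusion hWR)).codRestrict _ hβN) with hgβ
    have hgβF : gβ ∈ F.Hom (normalizerIn R X) :=
      F.comp_mem (restrict_mem hβ hWR) (dSys_le_F c.toCtx _ hg) hβN
    have hgβX : (X.subgroupOf (normalizerIn R X)).map gβ = X := by
      ext y
      constructor
      · rintro ⟨w, hw, rfl⟩
        exact hgX.le ⟨_, ⟨_, hw, rfl⟩, rfl⟩
      · intro hy
        obtain ⟨v, hv, rfl⟩ := hgX.ge hy
        obtain ⟨a, ha, e⟩ : (v : Ω) ∈ X'' := hv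
        exact ⟨⟨a, hXW ha⟩, ha, congrArg g (Subtype.ext e)⟩
    have hgβN : gβ ∈ N.Hom (normalizerIn R X) := by
      rw [hN (normalizerIn R X), show gβ = gβ.comp (Subgroup.inclusion le_rfl) from MonoidHom.ext fun _ => rfl]
      exact CfsgLib.FusionDichotomy.mem_normalizer_of_map hgβF hXW hgβX le_rfl hWN
    obtain ⟨α, hα, hαx⟩ := exists_aut_of_hom' N hgβN fun w =>
      hclosed hgβF hXW hgβX w w.2
    -- the map `α⁻¹ ψ` is a map of the product system
    obtain ⟨θg, hθg, -, hθgx, -⟩ := exists_inverse hg rfl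
    have hWg : (normalizerIn R X) ≤ g.range := fun y hy => by
      refine ⟨⟨_, hβN (α.symm ⟨y, hy⟩)⟩, ?_⟩
      exact (hαx (α.symm ⟨y, hy⟩)).symm.trans (congrArg Subtype.val (α.apply_symm_apply _))
    have hdW : ∀ z, d z ∈ g.range := by
      rintro ⟨_, a, ha, rfl⟩
      refine hWg ?_
      exact Eq.subst (motive := fun v => v ∈ (normalizerIn R X)) (hdx ⟨a, ha⟩ ⟨_, ha, rfl⟩).symm (hψW ⟨a, ha⟩)
    set e₁ := θg.comp (d.codRestrict _ hdW) with he₁
    have he₁m : e₁ ∈ (dSys c.toCtx).Hom (img β (P ⊔ X)) := (dSys c.toCtx).comp_mem hd hθg hdW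
    obtain ⟨θβ, hθβ, hθβr, hθβx, -⟩ := exists_inverse hβ hβr
    obtain ⟨e₂, he₂, he₂x⟩ := exists_moved c.toCtx c.toCtx hθβ
      (fun y => hθβr.le ⟨y, rfl⟩) he₁m
    have hsub : P ⊔ X ≤ img θβ (img β (P ⊔ X)) := fun z hz =>
      ⟨⟨β ⟨z, hAR hz⟩, hβR _⟩, ⟨_, hz, rfl⟩, hθβx ⟨z, hAR hz⟩ _⟩
    set χ := e₂.comp (Subgroup.inclusion hsub) with hχ
    have hχm : χ ∈ (dSys c.toCtx).Hom (P ⊔ X) := restrict_mem he₂ hsub
    have hval : ∀ z : ↥(P ⊔ X), χ z = ((α.symm ⟨ψ z, hψW z⟩ : (normalizerIn R X)) : Ω) := by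
      intro z
      set w := α.symm ⟨ψ z, hψW z⟩
      have e : e₁ ⟨β (Subgroup.inclusion hAR z), ⟨_, z.2, rfl⟩⟩ =
          β (Subgroup.inclusion hWR w) := by
        refine (congrArg θg (Subtype.ext ?_ : _ = (⟨g ⟨_, hβN w⟩, ⟨_, rfl⟩⟩ : g.range))).trans
          (hθgx ⟨_, hβN w⟩ ⟨_, rfl⟩)
        exact (hdx z _).trans ((congrArg Subtype.val (α.apply_symm_apply ⟨ψ z, hψW z⟩)).symm.trans
          (hαx w))
      have hq : θβ ⟨β (Subgroup.inclusion hAR z), hβR _⟩ ∈ img θβ (img β (P ⊔ X)) :=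
        ⟨_, ⟨_, z.2, rfl⟩, rfl⟩
      refine Eq.trans ?_ ((he₂x ⟨_, ⟨_, z.2, rfl⟩⟩ ⟨β (Subgroup.inclusion hAR z), hβR _⟩
        ⟨β (Subgroup.inclusion hWR w), hβR _⟩ hq rfl e.symm).trans
        (hθβx (Subgroup.inclusion hWR w) (hβR _)))
      exact congrArg e₂ (Subtype.ext (hθβx (Subgroup.inclusion hAR z) (hβR _)).symm)
    have hχX : (X.subgroupOf (P ⊔ X)).map χ = X := by
      ext y
      constructor
      · rintro ⟨z, hz, rfl⟩
        rw [hval]
        obtain ⟨w, hw, e⟩ := hgβX.ge (hψX.le ⟨z, hz, rfl⟩)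
        rw [show (⟨ψ z, hψW z⟩ : (normalizerIn R X)) = α w from Subtype.ext (e.symm.trans (hαx w).symm),
          MulEquiv.symm_apply_apply]
        exact hw
      · intro hy
        obtain ⟨z, hz, e⟩ := hψX.ge (hgβX.le ⟨⟨y, hXW hy⟩, hy, rfl⟩)
        refine ⟨z, hz, ?_⟩
        rw [hval, show (⟨ψ z, hψW z⟩ : (normalizerIn R X)) = α ⟨y, hXW hy⟩ from
          Subtype.ext (e.trans (hαx _).symm), MulEquiv.symm_apply_apply]
    refine ⟨α, hα, χ.comp (Subgroup.inclusion le_sup_left),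
      mem_normalizer_dSys c hN₁ hχm le_sup_right hχX le_sup_left hPW fun x => rfl,
      fun x hx => ?_⟩
    show φ x = ((α ⟨χ (Subgroup.inclusion le_sup_left x), hx⟩ : (normalizerIn R X)) : Ω)
    rw [show (⟨χ (Subgroup.inclusion le_sup_left x), hx⟩ : (normalizerIn R X)) =
      α.symm ⟨ψ (Subgroup.inclusion le_sup_left x), hψW _⟩ from Subtype.ext (hval _),
      MulEquiv.apply_symm_apply]
    exact (hψx x).symm
  refine ⟨⟨hN₁s, hNs, hsub, hWsc, hinv, hfr⟩, fun α hα => ?_⟩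
  -- the extension condition
  set C := centralizerIn (normalizerIn S X) (normalizerIn R X) with hC
  have hCS : ∀ v ∈ C, v ∈ S ∧ v ∈ Subgroup.centralizer (X : Set Ω) := fun v hv =>
    ⟨hv.1.1, fun x hx => hv.2 x (hXW hx)⟩
  have hCle : C ≤ S := fun v hv => (hCS v hv).1
  have hCR : C ≤ Subgroup.normalizer (R : Set Ω) := by
    have key : ∀ v ∈ C, ∀ y ∈ R, v * y * v⁻¹ ∈ R := by
      intro v hv y hy
      obtain ⟨x, hx, t, ht, rfl⟩ := c.exists_mul hy
      rw [show v * (x * t) * v⁻¹ = v * x * v⁻¹ * (v * t * v⁻¹) by group,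
        ← (hCS v hv).2 x hx, mul_inv_cancel_right]
      exact R.mul_mem (c.xR hx) (c.tr (c.conj_mem (hCle hv) ht))
    refine fun v hv => Subgroup.mem_normalizer_iff.mpr fun y => ⟨key v hv y, fun h => ?_⟩
    have := key v⁻¹ (C.inv_mem hv) _ h
    simpa [mul_assoc] using this
  have c' : Ctx F E p (R ⊔ C) := ⟨c.toSetup, c.tr.trans le_sup_left, sup_le c.rs hCle⟩
  haveI : Finite ↥(R ⊔ C) := finite_of_le c'.rs
  have hR'p : IsPGroup p ↥(R ⊔ C) := isPGroup_of_le c.isP c'.rs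
  have hD'F := dSys_le_F c'
  -- `(normalizerIn R X)` is fully centralized
  have hCeq : ∀ v, v ∈ centralizerIn S (normalizerIn R X) → v ∈ C := fun v hv =>
    ⟨⟨hv.1, centralizer_le_normalizer X (fun x hx => hv.2 x (hXW hx))⟩, hv.2⟩
  have hWfc : (dSys c').IsFullyCentralized (normalizerIn R X) := by
    refine ⟨hWR.trans le_sup_left, ?_⟩
    rintro _ ⟨φ, hφ, rfl⟩
    have hφF := hD'F _ hφ
    set X' := (X.subgroupOf (normalizerIn R X)).map φ with hX'
    have hconj : F.IsConj X X' :=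
      ⟨φ.comp (Subgroup.inclusion hXW), restrict_mem hφF hXW, range_comp_inclusion φ hXW⟩
    obtain ⟨χ, hχ, hχN, hχX⟩ :=
      exists_hom_normalizerIn_of_fullyNormalized c.isP c.sat c.hX (CfsgLib.Alperin.IsConj.symm hconj)
    have hφN : ∀ w : (normalizerIn R X), φ w ∈ normalizerIn S X' := fun w =>
      apply_mem_normalizerIn hφF hXW rfl w w.2.2
    set μ := χ.comp (φ.codRestrict _ hφN) with hμ
    have hμF : μ ∈ F.Hom (normalizerIn R X) := F.comp_mem hφF hχ hφN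
    have hμX : (X.subgroupOf (normalizerIn R X)).map μ = X := by
      ext y
      constructor
      · rintro ⟨w, hw, rfl⟩
        exact hχX.le ⟨_, ⟨w, hw, rfl⟩, rfl⟩
      · intro hy
        obtain ⟨v, ⟨w, hw, hwv⟩, rfl⟩ := hχX.ge hy
        exact ⟨w, hw, congrArg χ (Subtype.ext hwv)⟩
    have hμW : ∀ w, μ w ∈ (normalizerIn R X) := fun w => hclosed hμF hXW hμX w w.2
    have hμs : ∀ y ∈ (normalizerIn R X), ∃ w, μ w = y := by
      have : μ.range = (normalizerIn R X) := Subgroup.eq_of_le_of_card_ge (by rintro _ ⟨w, rfl⟩; exact hμW w)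
        (card_range_eq (F.injective_of_mem hμF)).ge
      exact fun y hy => this.ge hy
    have hle : centralizerIn (R ⊔ C) φ.range ≤ normalizerIn S X' := fun v hv =>
      ⟨c'.rs hv.1, centralizer_le_normalizer X' fun y hy => by
        obtain ⟨w, -, rfl⟩ := hy
        exact hv.2 _ ⟨w, rfl⟩⟩
    haveI : Finite (centralizerIn (R ⊔ C) (normalizerIn R X)) := finite_of_le ((centralizerIn_le _ (normalizerIn R X)).trans c'.rs)
    refine Nat.card_le_card_of_injective (fun v => ⟨χ (Subgroup.inclusion hle v), ?_, ?_⟩)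
      fun a b hab => Subgroup.inclusion_injective hle (F.injective_of_mem hχ
        (congrArg (fun z : ↥(centralizerIn (R ⊔ C) (normalizerIn R X)) => (z : Ω)) hab))
    · refine Subgroup.mem_sup_right (hCeq _ ⟨apply_mem hχ _, fun y hy => ?_⟩)
      obtain ⟨w, rfl⟩ := hμs y hy
      rw [hμ, MonoidHom.comp_apply, ← map_mul, ← map_mul]
      exact congrArg χ (Subtype.ext (v.2.2 _ ⟨w, rfl⟩))
    · intro y hy
      obtain ⟨w, rfl⟩ := hμs y hy
      rw [hμ, MonoidHom.comp_apply, ← map_mul, ← map_mul]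
      exact congrArg χ (Subtype.ext (v.2.2 _ ⟨w, rfl⟩))
  have hαD : (normalizerIn R X).subtype.comp α.toMonoidHom ∈ (dSys c.toCtx).Hom (normalizerIn R X) := by
    have h1 := (mem_autGroup_iff N₁ le_rfl).mp hα
    rw [hN₁ (normalizerIn R X)] at h1
    exact h1.1
  have hαD' := dSys_mono c.toCtx c' le_sup_left _ hαD
  obtain ⟨ψ, hψ, hψx⟩ := (receptive_of_fullyCentralized hR'p (dSys_isSaturated c') hWfc).2 (normalizerIn R X) _
    hαD' (range_subtype_comp_aut α)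
  set U := (normalizerIn R X) ⊔ C with hU
  have hCR' : C ≤ centralizerIn (R ⊔ C) (normalizerIn R X) := fun v hv => ⟨Subgroup.mem_sup_right hv, hv.2⟩
  have hUext : U ≤ extender (R ⊔ C) (normalizerIn R X) ((normalizerIn R X).subtype.comp α.toMonoidHom) :=
    (sup_le_sup_left hCR' (normalizerIn R X)).trans (sup_centralizerIn_le_extender hαD')
  set ψU := ψ.comp (Subgroup.inclusion hUext) with hψU
  have hψUm : ψU ∈ (dSys c').Hom U := restrict_mem hψ hUext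
  obtain ⟨-, -, -, s, hs, hmod, -⟩ := (dSys_le_cSys c' _ hψUm : IsCMap F E (R ⊔ C) ψU)
  obtain ⟨r, hr, c₀, hc₀, rfl⟩ : s ∈ (R : Set Ω) * (C : Set Ω) := by
    rw [← Subgroup.coe_mul_of_right_le_normalizer_left R C hCR]
    exact hs
  have hUc : ∀ z : U, c₀⁻¹ * (z : Ω) * c₀ ∈ U := fun z =>
    U.mul_mem (U.mul_mem (U.inv_mem (Subgroup.mem_sup_right hc₀)) z.2) (Subgroup.mem_sup_right hc₀)
  set k := (conjHom U c₀⁻¹).codRestrict U (fun z => by
    rw [conjHom_apply, inv_inv]; exact hUc z) with hk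
  set ψ' := ψU.comp k with hψ'
  have hψ'F : ψ' ∈ F.Hom U := by
    refine comp_mem_apply (F.conj_mem (sup_le (hWR.trans c.rs) hCle) (S.inv_mem (hCle hc₀)))
      (hD'F _ hψUm) (fun z => by rw [conjHom_apply, inv_inv]; exact hUc z) fun z => ?_
    exact congrArg ψU (Subtype.ext rfl)
  have hψW : ∀ w : (normalizerIn R X), ψ' (Subgroup.inclusion le_sup_left w) = ((α w : (normalizerIn R X)) : Ω) := fun w => by
    refine Eq.trans ?_ (hψx w w.2 (le_extender hαD' w.2))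
    refine congrArg ψ (Subtype.ext ?_)
    show c₀⁻¹ * (w : Ω) * c₀⁻¹⁻¹ = w
    rw [inv_inv, mul_assoc, hc₀.2 w w.2, inv_mul_cancel_left]
  have hCU : ∀ {v : Ω}, v ∈ C → v ∈ U := fun hv => Subgroup.mem_sup_right hv
  have hψC : ∀ (v : Ω) (hv : v ∈ C), ψ' ⟨v, hCU hv⟩ ∈ C := fun v hv => by
    refine hCeq _ ⟨apply_mem hψ'F _, fun y hy => ?_⟩
    obtain ⟨w, hw⟩ := α.surjective ⟨y, hy⟩
    rw [show y = ψ' (Subgroup.inclusion le_sup_left w) from
      ((hψW w).trans (congrArg Subtype.val hw)).symm, ← map_mul, ← map_mul]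
    exact congrArg ψ' (Subtype.ext (hv.2 w w.2))
  have hψT : ∀ (v : Ω) (hv : v ∈ C), v⁻¹ * ψ' ⟨v, hCU hv⟩ ∈ T := fun v hv => by
    have h1 : (r * c₀ * (c₀⁻¹ * v * c₀⁻¹⁻¹) * (r * c₀)⁻¹)⁻¹ * ψ' ⟨v, hCU hv⟩ ∈ T :=
      hmod (k ⟨v, hCU hv⟩)
    have h2 := c.conj_mem_of_centralizes hr (hCS v hv).1 (hCS v hv).2
    have := T.mul_mem h2 h1
    refine (Eq.mpr (congrArg (· ∈ T) ?_) this)
    group
  have hUN : U ≤ normalizerIn S X := sup_le hWN (centralizerIn_le _ (normalizerIn R X))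
  haveI := finite_of_le (hUN.trans (normalizerIn_le S X))
  have hψ'X : (X.subgroupOf U).map ψ' = X := by
    obtain ⟨-, hαX⟩ := hautX α (autGroup_mono hsub (normalizerIn R X) hα)
    ext y
    constructor
    · rintro ⟨⟨z, hz⟩, hzX, rfl⟩
      have := hψW ⟨z, hXW hzX⟩
      exact Eq.subst (motive := fun v => v ∈ X) this.symm (hαX.le ⟨⟨z, hXW hzX⟩, hzX, rfl⟩)
    · intro hy
      obtain ⟨w, hw, rfl⟩ := hαX.ge hy
      exact ⟨Subgroup.inclusion le_sup_left w, hw, hψW w⟩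
  have hψN : ψ' ∈ N.Hom U := by
    rw [hN U, show ψ' = ψ'.comp (Subgroup.inclusion le_rfl) from MonoidHom.ext fun _ => rfl]
    exact CfsgLib.FusionDichotomy.mem_normalizer_of_map hψ'F (hXW.trans le_sup_left) hψ'X le_rfl hUN
  obtain ⟨β, hβ, hβx⟩ := exists_aut_of_hom' N hψN (apply_mem_of_sup ψ'
    (fun w => by rw [hψW]; exact Subgroup.mem_sup_left (α w).2)
    fun v => hCU (hψC v v.2))
  refine ⟨β, hβ, fun w => (hβx _).trans (hψW w), fun z hz => ?_⟩
  rw [hβx]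
  have h1 : (z : Ω)⁻¹ * ψ' z ∈ C := C.mul_mem (C.inv_mem hz) (hψC z hz)
  exact ⟨⟨c.tr (hψT z hz), h1.1.2⟩, h1.2⟩

/-- The normalizer of `X` in the product system has its hyperfocal subgroup in `T` and its
automorphisms of order prime to `p` on subgroups of `T` in `E`. -/
theorem normalizer_hyperfocal_le (c : XCtx F E p X R) {N₁ : FusionSystem (normalizerIn R X)}
    (hN₁ : (dSys c.toCtx).IsNormalizerSystem X N₁) :
    N₁.hyperfocalSubgroup p ≤ T ∧ ∀ P, P ≤ T → ∀ γ ∈ N₁.autGroup P,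
      (orderOf γ).Coprime p → γ ∈ E.autGroup P := by
  have hle : N₁.IsSubsystemOf (dSys c.toCtx) := fun P φ hφ => by
    rw [hN₁ P] at hφ
    exact hφ.1
  refine ⟨(Central.hyperfocal_mono hle).trans (dSys_hyperfocal_le c.toCtx), fun P hP γ hγ hco => ?_⟩
  exact coprime_mem_autGroup c.toCtx hP
    (autGroup_mono (dSys_le_cSys c.toCtx) P (autGroup_mono hle P hγ)) hco

end CfsgLib.FusionBasics.Balance
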