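import Cfsg.Agent.Lib.FusionProduct.Unique
import Cfsg.Agent.Lib.FusionProduct.Existence

/-!
Product systems are carried into product systems by maps of the ambient system.
-/

set_option autoImplicit false
set_option linter.style.haveILetI false
set_option linter.unusedSectionVars false

namespace CfsgLib.FusionBasics.Balance

open Cfsg Cfsg.FusionSystem CfsgLib.Alperin CfsgLib.FusionSub CfsgLib.FusionProduct

universe u

variable {Ω : Type u} [Group Ω] {S T : Subgroup Ω} {F : FusionSystem S} {E : FusionSystem T}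
  {p : ℕ} [Fact p.Prime] [Finite S] {R R' : Subgroup Ω}

/-- `χ` is the map `φ` moved by `β`. -/
def Moved (β : R →* Ω) {P : Subgroup Ω} (φ : P →* Ω) (χ : img β P →* Ω) : Prop :=
  ∀ (x : P) (a b : R) (ha : β a ∈ img β P), (a : Ω) = x → (b : Ω) = φ x → χ ⟨β a, ha⟩ = β b

theorem exists_of_img {β : R →* Ω} {P : Subgroup Ω} (y : img β P) :
    ∃ (a : R) (ha : (a : Ω) ∈ P), β a = (y : Ω) := by
  obtain ⟨a, ha, e⟩ := y.2
  exact ⟨a, ha, e⟩

theorem aut_moved_iff {β : R →* Ω} {P : Subgroup Ω} (hPR : P ≤ R) (b : MulAut P)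
    (χ : img β P →* Ω) :
    Moved β (P.subtype.comp b.toMonoidHom) χ ↔
      ∀ (x : P) (ha : β (Subgroup.inclusion hPR x) ∈ img β P),
        χ ⟨_, ha⟩ = β (Subgroup.inclusion hPR (b x)) := by
  refine ⟨fun h x ha => h x _ _ ha rfl rfl, fun h x a c ha hax hcx => ?_⟩
  obtain rfl : a = Subgroup.inclusion hPR x := Subtype.ext hax
  obtain rfl : c = Subgroup.inclusion hPR (b x) := Subtype.ext hcx
  exact h x ha

/-- A map of `F` from `R` into `R'` carries the product system over `R` into that over `R'`. -/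
theorem exists_moved (c : Ctx F E p R) (c' : Ctx F E p R') {β : R →* Ω} (hβ : β ∈ F.Hom R)
    (hβR : ∀ x, β x ∈ R') {P : Subgroup Ω} {φ : P →* Ω} (hφ : φ ∈ (dSys c).Hom P) :
    ∃ χ ∈ (dSys c').Hom (img β P), Moved β φ χ := by
  haveI := c.finT
  haveI : Finite R := finite_of_le c.rs
  have hRp : IsPGroup p R := isPGroup_of_le c.isP c.rs
  have hinj := F.injective_of_mem hβ
  have hs := dSys_isSaturated c
  refine closed_induction_centric (Good := fun P φ => ∃ χ ∈ (dSys c').Hom (img β P), Moved β φ χ)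
    hRp hs ⟨?_, ?_, ?_⟩ (fun Q hQn hQc big α hα => ?_) hφ
  · rintro P Q φ hQ - ⟨χ, hχ, hm⟩
    refine ⟨_, restrict_mem hχ (img_mono β hQ), fun x a b ha hax hbx => ?_⟩
    exact hm ⟨x, hQ x.2⟩ a b (img_mono β hQ ha) hax hbx
  · rintro P Q φ ψ hφ - h ⟨χ, hχ, hm⟩ ⟨χ', hχ', hm'⟩
    have hPR := dom_le hφ
    have hv : ∀ y, χ y ∈ img β Q := fun y => by
      obtain ⟨a, ha, e⟩ := exists_of_img y
      obtain rfl : y = ⟨β a, ⟨a, ha, rfl⟩⟩ := Subtype.ext e.symm
      have e1 := hm ⟨a, ha⟩ a ⟨φ ⟨a, ha⟩, apply_mem hφ _⟩ ⟨a, ha, rfl⟩ rfl rfl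
      exact Eq.subst (motive := fun v => v ∈ img β Q) e1.symm ⟨_, h ⟨a, ha⟩, rfl⟩
    refine ⟨_, (dSys c').comp_mem hχ hχ' hv, fun x a b ha hax hbx => ?_⟩
    show χ' ⟨χ ⟨β a, ha⟩, _⟩ = β b
    have e := hm x a ⟨φ x, apply_mem hφ x⟩ ha hax rfl
    exact (congrArg χ' (Subtype.ext e : (⟨χ ⟨β a, ha⟩, hv _⟩ : img β Q) =
      ⟨β ⟨φ x, apply_mem hφ x⟩, ⟨_, h x, rfl⟩⟩)).trans (hm' ⟨φ x, h x⟩ _ b _ rfl hbx)
  · rintro P Q φ ψ hφ - hr hψ ⟨χ, hχ, hm⟩
    obtain ⟨θ, hθ, -, hθx, -⟩ := exists_inverse hχ rfl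
    have hle : img β Q ≤ χ.range := by
      rintro _ ⟨a, ha, rfl⟩
      obtain ⟨x, hx⟩ := hr.ge ha
      exact ⟨⟨β ⟨x, dom_le hφ x.2⟩, ⟨_, x.2, rfl⟩⟩, hm x _ a _ rfl hx.symm⟩
    refine ⟨_, restrict_mem hθ hle, fun y a b ha hay hby => ?_⟩
    obtain ⟨x, hx⟩ := hr.ge y.2
    obtain rfl : y = ⟨φ x, hr.le ⟨x, rfl⟩⟩ := Subtype.ext hx.symm
    have hb : (b : Ω) = x := hby.trans (hψ x _)
    have hbi : β b ∈ img β P := ⟨b, show (b : Ω) ∈ P by rw [hb]; exact x.2, rfl⟩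
    have e := hm x b a hbi hb hay
    show θ ⟨β a, _⟩ = β b
    exact (congrArg θ (Subtype.ext e.symm)).trans (hθx ⟨β b, hbi⟩ ⟨_, rfl⟩)
  have hQR := hQn.1
  haveI := finite_of_le (hQR.trans c.rs)
  by_cases hc : E.IsCentric (Q ⊓ T)
  swap
  · obtain ⟨X, hQX, ψ, hψ, hlt, hψx⟩ :=
      exists_extension_of_noncentric c hs (dSys_le_F c) (le_dSys c) hQn hQc hc hα
    obtain ⟨χ, hχ, hm⟩ := big X ψ hψ hlt
    refine ⟨_, restrict_mem hχ (img_mono β hQX), fun x a b ha hax hbx => ?_⟩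
    exact hm (Subgroup.inclusion hQX x) a b (img_mono β hQX ha) hax (hbx.trans (hψx x).symm)
  -- the automorphisms with a moved map
  have hQS : Q ≤ S := hQR.trans c.rs
  set ηQ := β.comp (Subgroup.inclusion hQR) with hηQ
  have hηQF : ηQ ∈ F.Hom Q := restrict_mem hβ hQR
  have hQ' : ηQ.range = img β Q := (img_eq_range β hQR).symm
  set e := isoOfHom ηQ (F.injective_of_mem hηQF) hQ' with he
  have hQ'R : img β Q ≤ R' := by
    rintro _ ⟨a, -, rfl⟩
    exact hβR a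
  have hmoved : ∀ b : MulAut Q, MulAut.congr e b ∈ (dSys c').autGroup (img β Q) →
      ∃ χ ∈ (dSys c').Hom (img β Q), Moved β (Q.subtype.comp b.toMonoidHom) χ := by
    intro b hb
    refine ⟨_, (mem_autGroup_iff _ hQ'R).mp hb, (aut_moved_iff hQR b _).mpr fun x ha => ?_⟩
    show ((MulAut.congr e b ⟨_, ha⟩ : img β Q) : Ω) = _
    rw [show (⟨_, ha⟩ : img β Q) = e x from Subtype.ext rfl, MulAut.congr_apply]
    simp only [MulEquiv.trans_apply, MulEquiv.symm_apply_apply]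
    rfl
  refine hmoved α ?_
  refine autGroup_le_of_pPrime hRp hs hQn
    (B := ((dSys c').autGroup (img β Q)).comap (MulAut.congr e).toMonoidHom) (fun a ha => ?_)
    (fun b hb hco => ?_) hα
  · obtain ⟨g, hg, hgx⟩ := mem_autInducedBy_iff.mp ha
    refine autInducedBy_le_autGroup (dSys c') hQ'R
      (mem_autInducedBy_iff.mpr ⟨β ⟨g, hg⟩, hβR _, fun y => ?_⟩)
    obtain ⟨x, rfl⟩ := e.surjective y
    show (((MulAut.congr e a) (e x) : img β Q) : Ω) = _
    rw [MulAut.congr_apply]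
    simp only [MulEquiv.trans_apply, MulEquiv.symm_apply_apply]
    show β (Subgroup.inclusion hQR (a x)) =
      β ⟨g, hg⟩ * β (Subgroup.inclusion hQR x) * (β ⟨g, hg⟩)⁻¹
    rw [← map_inv, ← map_mul, ← map_mul]
    exact congrArg β (Subtype.ext (hgx x))
  -- coprime automorphisms
  have hbC := autGroup_mono (dSys_le_cSys c) Q hb
  obtain ⟨-, hbT, ε, hε, hεx⟩ := coprime_cWith_one c hQR hbC hco
  have hbF := autGroup_mono (dSys_le_F c) Q hb
  have hV : Q ⊓ T ≤ Q := inf_le_left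
  have hbV : ∀ x : Q, (x : Ω) ∈ Q ⊓ T → ((b x : Q) : Ω) ∈ Q ⊓ T := fun x hx =>
    ⟨(b x).2, stronglyClosed_apply c.closed ((mem_autGroup_iff F hQS).mp hbF) x hx.2⟩
  haveI := finite_of_le (hV.trans hQS)
  obtain ⟨v, hv, hvx⟩ := exists_aut_of_hom' (dSys c)
    (restrict_mem ((mem_autGroup_iff _ hQR).mp hb) hV) fun x => hbV ⟨x, hV x.2⟩ x.2
  have hpow : ∀ (n : ℕ) (x : ↥(Q ⊓ T)),
      (((v ^ n) x : ↥(Q ⊓ T)) : Ω) = ((b ^ n) (Subgroup.inclusion hV x) : Q) := by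
    intro n
    induction n with
    | zero => intro x; rfl
    | succ n ih =>
      intro x
      rw [pow_succ', pow_succ', MulAut.mul_apply, MulAut.mul_apply, hvx]
      exact congrArg (fun z : Q => ((b z : Q) : Ω)) (Subtype.ext (ih x))
  have hvco : (orderOf v).Coprime p := hco.coprime_dvd_left (orderOf_dvd_of_pow_eq_one
    (MulEquiv.ext fun x => Subtype.ext (by rw [hpow, pow_orderOf_eq_one]; rfl)))
  have hvE : v ∈ E.autGroup (Q ⊓ T) :=
    coprime_mem_autGroup c inf_le_right (autGroup_mono (dSys_le_cSys c) _ hv) hvco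
  set ηV := ηQ.comp (Subgroup.inclusion hV) with hηV
  have hηVF : ηV ∈ F.Hom (Q ⊓ T) := restrict_mem hηQF hV
  set eV := isoOfHom ηV (F.injective_of_mem hηVF) rfl with heV
  have hV'T : ηV.range ≤ T := by
    rintro _ ⟨x, rfl⟩
    exact stronglyClosed_apply c.closed hηQF _ x.2.2
  have hV'Q : ηV.range ≤ img β Q := by
    rintro _ ⟨x, rfl⟩
    exact hQ'.le ⟨_, rfl⟩
  have hvE' : MulAut.congr eV v ∈ E.autGroup ηV.range :=
    c.aut_transport inf_le_right hηVF rfl hvE fun x hm => by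
      rw [show (⟨ηV x, hm⟩ : ηV.range) = eV x from Subtype.ext rfl, MulAut.congr_apply]
      simp only [MulEquiv.trans_apply, MulEquiv.symm_apply_apply]
      rfl
  have hQ'T : img β Q ⊓ T ≤ ηV.range := by
    rintro _ ⟨⟨a, ha, rfl⟩, hT⟩
    have : (a : Ω) ∈ T := mem_of_apply_mem c.closed hβ a hT
    exact ⟨⟨a, ha, this⟩, rfl⟩
  have hVV : ηV.range = img β Q ⊓ T := le_antisymm (le_inf hV'Q hV'T) hQ'T
  show MulAut.congr e b ∈ (dSys c').autGroup (img β Q)
  refine coprime_mem_dSys c' (isCentric_map c.toSetup hc hηVF) hV'Q hQ'T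
    (hVV ▸ le_normalizer_inf c' hQ'R) ?_ ?_ ?_ hvE' ?_
  · exact (autGroup_map_congr hηQF hQ').le ⟨b, hbF, rfl⟩
  · rw [(MulAut.congr e).orderOf_eq]
    exact hco
  · intro y
    obtain ⟨x, rfl⟩ := e.surjective y
    show (e x : Ω)⁻¹ * ((MulAut.congr e b (e x) : img β Q) : Ω) ∈ T
    rw [MulAut.congr_apply]
    simp only [MulEquiv.trans_apply, MulEquiv.symm_apply_apply]
    show (ηQ x)⁻¹ * ηQ (b x) ∈ T
    rw [← map_inv, ← map_mul]
    refine stronglyClosed_apply c.closed hηQF _ ?_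
    have := hbT x
    simpa using this
  · intro y
    obtain ⟨x, rfl⟩ := eV.surjective y
    rw [show (⟨(eV x : Ω), hV'Q (eV x).2⟩ : img β Q) = e (Subgroup.inclusion hV x) from
      Subtype.ext rfl, MulAut.congr_apply, MulAut.congr_apply]
    simp only [MulEquiv.trans_apply, MulEquiv.symm_apply_apply]
    show ηQ (b (Subgroup.inclusion hV x)) = ηQ (Subgroup.inclusion hV (v x))
    exact congrArg ηQ (Subtype.ext (hvx x).symm)

/-- The product system grows with its subgroup. -/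
theorem dSys_mono (c : Ctx F E p R) (c' : Ctx F E p R') (hle : R ≤ R') :
    (dSys c).IsSubsystemOf (dSys c') := by
  intro P φ hφ
  have hPR := dom_le hφ
  obtain ⟨χ, hχ, hm⟩ := exists_moved c c' (incl_mem F c.rs) (fun x => hle x.2) hφ
  refine restrict_mem_apply hχ (fun x hx => ⟨⟨x, hPR hx⟩, hx, rfl⟩) fun x => ?_
  exact (hm x ⟨x, hPR x.2⟩ ⟨φ x, apply_mem hφ x⟩ ⟨_, x.2, rfl⟩ rfl rfl).symm

end CfsgLib.FusionBasics.Balance
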